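import Mathlib
import Cfsg.Agent.Lib.ClassSizes3.Basic

/-!
Class sizes `{1, n, m, n * m}` with `n, m` coprime: first lemmas.
-/

set_option autoImplicit false

namespace CfsgLib.ClassSizesNM

open Subgroup CfsgLib.ClassSizes3

variable {G : Type*} [Group G]

/-- The class sizes are `1, n, m, n * m`, all of them occurring, with `n, m > 1` coprime. -/
structure Type4 (G : Type*) [Group G] (n m : ℕ) : Prop where
  one_lt_n : 1 < n
  one_lt_m : 1 < m
  coprime : n.Coprime m
  cases : ∀ x : G, cl x = 1 ∨ cl x = n ∨ cl x = m ∨ cl x = n * m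
  exists_n : ∃ x : G, cl x = n
  exists_m : ∃ x : G, cl x = m
  exists_nm : ∃ x : G, cl x = n * m

theorem PEl.coprime_p {p q : ℕ} (hp : p.Prime) (hq : q.Prime) (hne : q ≠ p) {x : G}
    (hx : PEl q x) : (orderOf x).Coprime p := by
  obtain ⟨k, hk⟩ := hx
  exact (((Nat.coprime_primes hq hp).mpr hne).pow_left k).coprime_dvd_left
    (orderOf_dvd_of_pow_eq_one hk)

theorem PEl.coprime_of_reg {p : ℕ} {x y : G} (hx : PEl p x) (hy : (orderOf y).Coprime p) :
    (orderOf x).Coprime (orderOf y) := by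
  obtain ⟨k, hk⟩ := hx
  exact ((hy.pow_right k).coprime_dvd_right (orderOf_dvd_of_pow_eq_one hk)).symm

theorem PEl.of_mem_pgroup {p : ℕ} {D : Subgroup G} (hD : IsPGroup p D) {x : G} (hx : x ∈ D) :
    PEl p x := ClassSizes3.PEl.of_mem hD hx

variable [Finite G] {n m : ℕ}

omit [Finite G] in
theorem Type4.symm (hs : Type4 G n m) : Type4 G m n where
  one_lt_n := hs.one_lt_m
  one_lt_m := hs.one_lt_n
  coprime := hs.coprime.symm
  cases := fun x => by rw [mul_comm m n]; rcases hs.cases x with h | h | h | h <;> simp [h]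
  exists_n := hs.exists_m
  exists_m := hs.exists_n
  exists_nm := by rw [mul_comm m n]; exact hs.exists_nm

omit [Finite G] in
theorem Type4.not_dvd (hs : Type4 G n m) : ¬ m ∣ n := fun h =>
  absurd (hs.coprime.symm.eq_one_of_dvd h) (by have := hs.one_lt_m; omega)

omit [Finite G] in
theorem Type4.notMem_center_of_n (hs : Type4 G n m) {x : G} (hx : cl x = n) : x ∉ center G :=
  fun h => by
    have := hs.one_lt_n
    rw [← cl_eq_one, hx] at h
    omega

omit [Finite G] in
theorem Type4.cases' (hs : Type4 G n m) {x : G} (hx : x ∉ center G) :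
    cl x = n ∨ cl x = m ∨ cl x = n * m :=
  (hs.cases x).resolve_left fun h => hx (cl_eq_one.mp h)

omit [Finite G] in
theorem Type4.eq_n_of_dvd (hs : Type4 G n m) {x : G} (hx : x ∉ center G) (h : cl x ∣ n) :
    cl x = n := by
  rcases hs.cases' hx with h1 | h1 | h1
  · exact h1
  · exact absurd (h1 ▸ h) hs.not_dvd
  · exact absurd ((dvd_mul_left m n).trans (h1 ▸ h)) hs.not_dvd

omit [Finite G] in
theorem Type4.eq_n_or (hs : Type4 G n m) {x : G} (h : n ∣ cl x) : cl x = n ∨ cl x = n * m := by
  rcases hs.cases x with h1 | h1 | h1 | h1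
  · rw [h1, Nat.dvd_one] at h
    exact absurd h (by have := hs.one_lt_n; omega)
  · exact .inl h1
  · exact absurd (h1 ▸ h) hs.symm.not_dvd
  · exact .inr h1

omit [Finite G] in
theorem Type4.eq_nm (hs : Type4 G n m) {x : G} (hn : n ∣ cl x) (hm : m ∣ cl x) :
    cl x = n * m := by
  rcases hs.eq_n_or hn with h | h
  · exact absurd (h ▸ hm) hs.not_dvd
  · exact h

/-- `|C(x)|_p |x^G|_p = |G|_p`. -/
theorem fac_C (x : G) (p : ℕ) :
    (Nat.card (C x)).factorization p + (cl x).factorization p = (Nat.card G).factorization p := by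
  rw [← card_C_mul_cl x, Nat.factorization_mul Nat.card_pos.ne'
    (show cl x ≠ 0 from index_ne_zero_of_finite), Finsupp.add_apply]

theorem cl_dvd_mul_left {x y : G} (h : Commute x y) (hco : (orderOf x).Coprime (orderOf y)) :
    cl x ∣ cl (x * y) := cl_dvd_of_le ((C_mul h hco).le.trans inf_le_left)

theorem cl_dvd_mul_right {x y : G} (h : Commute x y) (hco : (orderOf x).Coprime (orderOf y)) :
    cl y ∣ cl (x * y) := cl_dvd_of_le ((C_mul h hco).le.trans inf_le_right)

/-- An element of largest class commutes only with elements whose centralizer is above its own. -/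
theorem le_of_max (hs : Type4 G n m) {u w : G} (hu : cl u = n * m) (h : w ∈ C u)
    (hco : (orderOf u).Coprime (orderOf w)) : C u ≤ C w ∧ cl (u * w) = n * m := by
  have hc : Commute u w := (mem_C.mp h).symm
  have hd : n * m ∣ cl (u * w) := hu ▸ cl_dvd_mul_left hc hco
  have he := hs.eq_nm ((dvd_mul_right n m).trans hd) ((dvd_mul_left m n).trans hd)
  have hle : C (u * w) ≤ C u := (C_mul hc hco).le.trans inf_le_left
  exact ⟨(eq_of_le_of_cl_eq hle (hu.trans he.symm)).ge.trans ((C_mul hc hco).le.trans inf_le_right),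
    he⟩

/-- The classes inside the centralizer of an element of class size `n`. -/
theorem rel_options (hs : Type4 G n m) {x z : G} (hx : cl x = n) (hz : z ∈ C x)
    (hco : (orderOf x).Coprime (orderOf z)) :
    (C x ≤ C z ∧ cl (x * z) = n) ∨ ((C z).relIndex (C x) = m ∧ cl (x * z) = n * m) := by
  have hc : Commute x z := (mem_C.mp hz).symm
  rcases hs.eq_n_or (hx ▸ cl_dvd_mul_left hc hco) with h | h
  · refine .inl ⟨?_, h⟩
    exact (eq_of_le_of_cl_eq ((C_mul hc hco).le.trans inf_le_left) (hx.trans h.symm)).ge.trans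
      ((C_mul hc hco).le.trans inf_le_right)
  · refine .inr ⟨?_, h⟩
    have h1 := relIndex_mul_index (inf_le_left : C x ⊓ C z ≤ C x)
    rw [inf_relIndex_left, ← C_mul hc hco] at h1
    change _ * cl x = cl (x * z) at h1
    rw [h, hx, mul_comm n m] at h1
    exact Nat.eq_of_mul_eq_mul_right (by have := hs.one_lt_n; omega) h1

/-- An element of class size prime to `p` centralizes, up to conjugacy, a given Sylow subgroup. -/
theorem exists_conj_central {p : ℕ} [Fact p.Prime] {D : Subgroup G} (hD : SylowIn p ⊤ D) {x : G}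
    (hx : ¬ p ∣ cl x) : ∃ g : G, D ≤ C (g * x * g⁻¹) := by
  obtain ⟨D', hD'⟩ := exists_sylowIn (p := p) (C x)
  obtain ⟨c, -, hc⟩ := (hD'.full hx).exists_conj hD.isPGroup le_top
  refine ⟨c⁻¹, fun a ha => mem_C_conj.mpr ?_⟩
  rw [inv_inv]
  exact hD'.le (hc a ha)

theorem mem_of_central_pel {p : ℕ} [Fact p.Prime] {H D : Subgroup G} (hD : SylowIn p H D) {x : G}
    (hx : PEl p x) (hxH : x ∈ H) (hDx : D ≤ C x) : x ∈ D :=
  hD.mem_of_normalizes hx hxH (centralizer_le_normalizer _
    (mem_centralizer_iff.mpr fun a ha => mem_C.mp (hDx ha)))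

/-- A noncentral `p`-element of class prime to `p` has a conjugate in the centre of each Sylow
subgroup. -/
theorem exists_conj_central_mem {p : ℕ} [Fact p.Prime] {D : Subgroup G} (hD : SylowIn p ⊤ D) {x : G}
    (hxp : PEl p x) (hx : ¬ p ∣ cl x) :
    ∃ g : G, D ≤ C (g * x * g⁻¹) ∧ g * x * g⁻¹ ∈ D := by
  obtain ⟨g, hg⟩ := exists_conj_central hD hx
  exact ⟨g, hg, mem_of_central_pel hD (hxp.conj g) (mem_top _) hg⟩

/-- Having a noncentral `p`-element depends only on the `p`-part of the order of a subgroup over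
the centre. -/
theorem exists_noncentral_of_fac {p : ℕ} [Fact p.Prime] {H K : Subgroup G}
    (hK : center G ≤ K) (hf : (Nat.card H).factorization p = (Nat.card K).factorization p)
    {z : G} (hz : PEl p z) (hzK : z ∈ K) (hzc : z ∉ center G) :
    ∃ w ∈ H, PEl p w ∧ w ∉ center G := by
  by_contra hno
  push Not at hno
  obtain ⟨D, hD⟩ := exists_sylowIn (p := p) H
  have hDc : D ≤ center G := fun a ha => hno a (hD.le ha) (PEl.of_mem_pgroup hD.isPGroup ha)
  obtain ⟨E, hE⟩ := exists_sylowIn (p := p) K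
  have hDE : D ≤ E := fun a ha =>
    hE.center_mem (PEl.of_mem_pgroup hD.isPGroup ha) (hK (hDc ha)) (hDc ha)
  have he : D = E := eq_of_le_of_card_ge hDE (by rw [hD.card, hE.card, hf])
  exact hzc (hE.mem_center (he ▸ hDc) hz hzK)

/-- A primary power of class `n` of an element of class `n`. -/
theorem exists_primary_n (hs : Type4 G n m) {x : G} (hx : cl x = n) :
    ∃ (p : ℕ) (w : G), p.Prime ∧ PEl p w ∧ C x ≤ C w ∧ cl w = n := by
  obtain ⟨p, w, hp, hw, hle, hwc⟩ := exists_pel_noncentral (hs.notMem_center_of_n hx)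
  exact ⟨p, w, hp, hw, hle, hs.eq_n_of_dvd hwc (hx ▸ cl_dvd_of_le hle)⟩

end CfsgLib.ClassSizesNM
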