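import Cfsg.Agent.Lib.ClassSizesNM.Basic
import Cfsg.Agent.Lib.ClassGraph.Basic
import Cfsg.Agent.S4127

/-!
Class sizes `{1, p ^ a, q ^ b, p ^ a * q ^ b}`: reduction to the case in which `p`-elements
avoid the class size `p ^ a` and `q`-elements the class size `q ^ b`.
-/

set_option autoImplicit false
set_option linter.style.haveILetI false

namespace CfsgLib.ClassSizesNM

open Subgroup CfsgLib.ClassSizes3

variable {G : Type*} [Group G] [Finite G] {n m p q : ℕ}

/-- The class sizes are `1, p ^ a, q ^ b, p ^ a * q ^ b`. -/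
structure PQSizes (G : Type*) [Group G] (p q n m : ℕ) : Prop where
  sizes : Type4 G n m
  prime_p : p.Prime
  prime_q : q.Prime
  ne : p ≠ q
  pow_n : ∃ a : ℕ, n = p ^ a
  pow_m : ∃ b : ℕ, m = q ^ b

omit [Finite G] in
theorem PQSizes.symm (h : PQSizes G p q n m) : PQSizes G q p m n :=
  ⟨h.sizes.symm, h.prime_q, h.prime_p, h.ne.symm, h.pow_m, h.pow_n⟩

omit [Finite G] in
theorem PQSizes.eq_p_of_dvd_n (h : PQSizes G p q n m) {r : ℕ} (hr : r.Prime) (hd : r ∣ n) :
    r = p := by
  obtain ⟨a, rfl⟩ := h.pow_n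
  exact (Nat.prime_dvd_prime_iff_eq hr h.prime_p).mp (hr.dvd_of_dvd_pow hd)

omit [Finite G] in
theorem PQSizes.not_q_dvd_n (h : PQSizes G p q n m) : ¬ q ∣ n := fun hd =>
  h.ne (h.eq_p_of_dvd_n h.prime_q hd).symm

omit [Finite G] in
theorem PQSizes.p_dvd_n (h : PQSizes G p q n m) : p ∣ n := by
  obtain ⟨r, hr, hd⟩ := Nat.exists_prime_and_dvd
    (show n ≠ 1 by have := h.sizes.one_lt_n; omega)
  exact h.eq_p_of_dvd_n hr hd ▸ hd

/-- Elements of order prime to `p` and `q` are central. -/
theorem PQSizes.others (h : PQSizes G p q n m) {r : ℕ} (hr : r.Prime) (hrp : r ≠ p) (hrq : r ≠ q)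
    {w : G} (hw : PEl r w) : w ∈ center G := by
  haveI := Fact.mk hr
  obtain ⟨D, hD⟩ := exists_sylowIn (p := r) (⊤ : Subgroup G)
  have htop : centralizer (D : Set G) = ⊤ := by
    by_contra hne
    obtain ⟨g, hg⟩ := CfsgLib.ClassGraph.exists_forall_conj_notMem hne
    have hnd : ¬ r ∣ cl g := fun hd => by
      rcases h.sizes.cases g with e | e | e | e <;> rw [e] at hd
      · exact hr.ne_one (Nat.dvd_one.mp hd)
      · exact hrp (h.eq_p_of_dvd_n hr hd)
      · exact hrq (h.symm.eq_p_of_dvd_n hr hd)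
      · rcases hr.dvd_mul.mp hd with hd | hd
        · exact hrp (h.eq_p_of_dvd_n hr hd)
        · exact hrq (h.symm.eq_p_of_dvd_n hr hd)
    obtain ⟨c, hc⟩ := exists_conj_central hD hnd
    exact hg c (mem_centralizer_iff.mpr fun a ha => mem_C.mp (hc ha))
  have hDc : D ≤ center G := fun a ha => mem_center_iff.mpr fun g =>
    ((mem_centralizer_iff.mp (htop ▸ mem_top g : g ∈ centralizer (D : Set G))) a ha).symm
  exact hD.mem_center hDc hw (mem_top _)

/-- A primary element of class `n` is a `p`-element or a `q`-element. -/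
theorem PQSizes.prime_of_noncentral (h : PQSizes G p q n m) {r : ℕ} (hr : r.Prime) {w : G}
    (hw : PEl r w) (hc : w ∉ center G) : r = p ∨ r = q := by
  by_contra hne
  push Not at hne
  exact hc (h.others hr hne.1 hne.2 hw)

/-- With a normal `q`-complement, the `p`-elements form a subgroup. -/
theorem PQSizes.mem_of_complement (h : PQSizes G p q n m) [hp : Fact p.Prime] [hq : Fact q.Prime]
    (hc : Cfsg.HasNormalPComplement q G) {D : Subgroup G} (hD : SylowIn p ⊤ D) {a : G}
    (ha : PEl p a) : a ∈ D := by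
  obtain ⟨Q, N, hN, hNQ⟩ := hc
  obtain ⟨j, hj⟩ := IsPGroup.iff_card.mp Q.isPGroup'
  have hNi : N.index = q ^ j := hNQ.symm.index_eq_card.trans hj
  have hNc : ¬ q ∣ Nat.card N := by
    rw [← hNQ.index_eq_card]
    exact Q.not_dvd_index
  have hmem : ∀ b : G, PEl p b → b ∈ N := fun b hb => by
    rw [← QuotientGroup.eq_one_iff, ← orderOf_eq_one_iff]
    refine Nat.Coprime.eq_one_of_dvd ?_
      ((_root_.orderOf_dvd_natCard _).trans (dvd_of_eq (show Nat.card (G ⧸ N) = q ^ j from hNi)))
    exact ((PEl.coprime_p hq.out hp.out h.ne hb).pow_right j).coprime_dvd_left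
      (orderOf_map_dvd (QuotientGroup.mk' N) b)
  have hDN : D ≤ N := fun b hb => hmem b (PEl.of_mem_pgroup hD.isPGroup hb)
  have hNn : N ≤ normalizer (D : Set G) := by
    have hd : Nat.card N ∣ Nat.card (N ⊓ normalizer (D : Set G) : Subgroup G) := by
      refine (Nat.factorization_le_iff_dvd Nat.card_pos.ne' Nat.card_pos.ne').mp fun r => ?_
      by_cases hr : r.Prime
      swap
      · rw [Nat.factorization_eq_zero_of_not_prime _ hr]
        exact Nat.zero_le _
      haveI := Fact.mk hr
      by_cases hrp : r = p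
      · subst hrp
        have h1 := card_dvd_of_le (le_inf hDN le_normalizer : D ≤ N ⊓ normalizer (D : Set G))
        rw [hD.card, card_top] at h1
        exact ((Nat.factorization_le_iff_dvd Nat.card_pos.ne' Nat.card_pos.ne').mpr
          (card_subgroup_dvd_card N) r).trans
          ((hp.out.pow_dvd_iff_le_factorization Nat.card_pos.ne').mp h1)
      by_cases hrq : r = q
      · subst hrq
        rw [Nat.factorization_eq_zero_of_not_dvd hNc]
        exact Nat.zero_le _
      obtain ⟨E, hE⟩ := exists_sylowIn (p := r) N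
      have hEc : E ≤ center G := fun b hb => h.others hr hrp hrq (PEl.of_mem_pgroup hE.isPGroup hb)
      have h1 := card_dvd_of_le (le_inf hE.le (fun b hb => centralizer_le_normalizer _
        (center_le_centralizer _ (hEc hb))) : E ≤ N ⊓ normalizer (D : Set G))
      rw [hE.card] at h1
      exact (hr.pow_dvd_iff_le_factorization Nat.card_pos.ne').mp h1
    exact (eq_of_le_of_card_ge (inf_le_left : N ⊓ normalizer (D : Set G) ≤ N)
      (Nat.le_of_dvd Nat.card_pos hd)).ge.trans inf_le_right
  exact hD.mem_of_normalizes ha (mem_top _) (hNn (hmem a ha))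

/-- A `q`-element of class `q ^ b` gives a normal `q`-complement. -/
theorem PQSizes.complement (h : PQSizes G p q n m) [hq : Fact q.Prime] {y : G} (hyq : PEl q y)
    (hy : cl y = m) : Cfsg.HasNormalPComplement q G := by
  obtain ⟨b, hb⟩ := h.pow_m
  refine Cfsg.Agent.S4127.result q b (fun z hd => ?_) ⟨y, ?_, hy.trans hb⟩
  · have h1 : q ^ (b + 1) ∣ n * m := by
      have h2 : cl z ∣ n * m := by
        rcases h.sizes.cases z with e | e | e | e <;> rw [e]
        · exact one_dvd _
        · exact dvd_mul_right n m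
        · exact dvd_mul_left m n
      exact hd.trans h2
    have h3 : q ^ (b + 1) ∣ m :=
      ((hq.out.coprime_iff_not_dvd.mpr h.not_q_dvd_n).pow_left (b + 1)).dvd_of_dvd_mul_left h1
    rw [hb, Nat.pow_dvd_pow_iff_le_right hq.out.one_lt] at h3
    omega
  · obtain ⟨k, hk⟩ := hyq
    obtain ⟨i, -, hi⟩ := (Nat.dvd_prime_pow hq.out).mp (orderOf_dvd_of_pow_eq_one hk)
    exact ⟨i, hi⟩

/-- A `q`-element of class `q ^ b` forces a `p`-element of class `p ^ a`. -/
theorem PQSizes.exists_p_of_q (h : PQSizes G p q n m) {y : G} (hyq : PEl q y) (hy : cl y = m) :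
    ∃ x : G, PEl p x ∧ cl x = n := by
  by_contra hno
  push Not at hno
  haveI := Fact.mk h.prime_p
  haveI := Fact.mk h.prime_q
  obtain ⟨D, hD⟩ := exists_sylowIn (p := p) (⊤ : Subgroup G)
  have hall : ∀ a : G, PEl p a → a ∈ D := fun a ha => h.mem_of_complement (h.complement hyq hy) hD ha
  obtain ⟨x0, hx0⟩ := h.sizes.exists_n
  obtain ⟨r, x, hr, hxr, -, hx⟩ := exists_primary_n h.sizes hx0
  obtain rfl : r = q := (h.prime_of_noncentral hr hxr (h.sizes.notMem_center_of_n hx)).resolve_left
    fun e => hno x (e ▸ hxr) hx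
  obtain ⟨E, hE⟩ := exists_sylowIn (p := r) (C x)
  obtain ⟨c, -, hc⟩ := (hE.full (show ¬ r ∣ cl x from hx ▸ h.not_q_dvd_n)).conj_mem hyq (mem_top _)
  set y' := c * y * c⁻¹
  have hy'q : PEl r y' := hyq.conj c
  have hy' : cl y' = m := by rw [cl_conj, hy]
  have hxy : x ∈ C y' := C_comm (hE.le hc)
  have hDy : D ≤ C y' := by
    obtain ⟨D', hD'⟩ := exists_sylowIn (p := p) (C y')
    have hf := hD'.full (show ¬ p ∣ cl y' from hy' ▸ h.symm.not_q_dvd_n)
    exact (eq_of_le_of_card_ge (fun a ha => hall a (PEl.of_mem_pgroup hD'.isPGroup ha))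
      (by rw [hD.card, hf.card])).ge.trans hD'.le
  have hcover : ∀ u ∈ D, ∃ s ∈ D, s * u * s⁻¹ ∈ C x := by
    intro u hu
    have hup := PEl.of_mem_pgroup hD.isPGroup hu
    by_cases huc : u ∈ center G
    · exact ⟨1, one_mem _, by simpa using center_le_C x huc⟩
    have huy : Commute u y' := mem_C.mp (hDy hu)
    have hco := PEl.coprime h.prime_p h.prime_q h.ne hup hy'q
    have hf : (Nat.card (C (u * y'))).factorization r = (Nat.card (C y')).factorization r := by
      have h1 := fac_C (u * y') r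
      have h2 := fac_C y' r
      rw [hy'] at h2
      rcases h.sizes.symm.eq_n_or (hy' ▸ cl_dvd_mul_right huy hco) with e | e <;> rw [e] at h1
      · omega
      · rw [Nat.factorization_mul (by have := h.sizes.one_lt_m; omega)
          (by have := h.sizes.one_lt_n; omega), Finsupp.add_apply,
          Nat.factorization_eq_zero_of_not_dvd h.not_q_dvd_n] at h1
        omega
    obtain ⟨R, hR⟩ := exists_sylowIn (p := r) (C (u * y'))
    have hR' : SylowIn r (C y') R := ⟨hR.le.trans ((C_mul huy hco).le.trans inf_le_right),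
      hR.isPGroup, hR.card.trans (by rw [hf])⟩
    obtain ⟨g, -, hg⟩ := hR'.conj_mem hxr hxy
    have hgu : g * x * g⁻¹ ∈ C u := ((C_mul huy hco).le.trans inf_le_left) (hR.le hg)
    obtain ⟨s, hs, e, he, hge⟩ := exists_mul_of_index (H := C x) le_top hD
      ⟨h.pow_n.choose, by rw [relIndex_top_right]; exact hx.trans h.pow_n.choose_spec⟩ (mem_top g)
    refine ⟨s⁻¹, inv_mem hs, ?_⟩
    have hgx : g * x * g⁻¹ = s * x * s⁻¹ := by
      rw [hge]
      calc s * e * x * (s * e)⁻¹ = s * (e * x) * e⁻¹ * s⁻¹ := by group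
        _ = s * (x * e) * e⁻¹ * s⁻¹ := by rw [mem_C.mp he]
        _ = s * x * s⁻¹ := by group
    rw [hgx] at hgu
    rw [inv_inv]
    exact mem_C_conj.mp (C_comm hgu)
  have hA : (C x).subgroupOf D = ⊤ := by
    by_contra hne
    obtain ⟨g, hg⟩ := CfsgLib.ClassGraph.exists_forall_conj_notMem hne
    obtain ⟨s, hs, hsx⟩ := hcover g g.2
    exact hg ⟨s, hs⟩ (mem_subgroupOf.mpr hsx)
  have hdvd := card_dvd_of_le (subgroupOf_eq_top.mp hA)
  rw [hD.card, card_top] at hdvd
  have h1 := (h.prime_p.pow_dvd_iff_le_factorization Nat.card_pos.ne').mp hdvd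
  have h2 := fac_C x p
  have h3 : 0 < (cl x).factorization p := h.prime_p.factorization_pos_of_dvd index_ne_zero_of_finite
    (show p ∣ cl x from hx ▸ h.p_dvd_n)
  omega

/-- Both normal complements make the group nilpotent. -/
theorem PQSizes.isNilpotent_of_exists (h : PQSizes G p q n m) {x y : G} (hxp : PEl p x)
    (hx : cl x = n) (hyq : PEl q y) (hy : cl y = m) : Group.IsNilpotent G := by
  haveI := Fact.mk h.prime_p
  haveI := Fact.mk h.prime_q
  have hq := h.complement hyq hy
  have hp := h.symm.complement hxp hx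
  suffices key : ∀ (r : ℕ), Fact r.Prime → ∀ P : Sylow r G, (P : Subgroup G).Normal from
    ((Group.isNilpotent_of_finite_tfae (G := G)).out 0 3).mpr key
  intro r hr P
  refine ⟨fun a ha g => ?_⟩
  have hP : SylowIn r ⊤ (P : Subgroup G) :=
    ⟨le_top, P.isPGroup', by rw [P.card_eq_multiplicity, card_top]⟩
  have hpel := (PEl.of_mem_pgroup P.isPGroup' ha).conj g
  by_cases hrp : r = p
  · subst hrp
    exact h.mem_of_complement hq hP hpel
  by_cases hrq : r = q
  · subst hrq
    exact h.symm.mem_of_complement hp hP hpel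
  exact hP.center_mem hpel (mem_top _) (h.others hr.out hrp hrq hpel)

/-- The remaining case. -/
structure Crossed (G : Type*) [Group G] (p q n m : ℕ) : Prop extends PQSizes G p q n m where
  noP : ∀ w : G, PEl p w → cl w ≠ n
  noQ : ∀ w : G, PEl q w → cl w ≠ m

/-- Either the group is nilpotent, or we are in the remaining case. -/
theorem PQSizes.nilpotent_or_crossed (h : PQSizes G p q n m) :
    Group.IsNilpotent G ∨ Crossed G p q n m := by
  by_cases hP : ∃ x : G, PEl p x ∧ cl x = n
  · obtain ⟨x, hxp, hx⟩ := hP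
    obtain ⟨y, hyq, hy⟩ := h.symm.exists_p_of_q hxp hx
    exact .inl (h.isNilpotent_of_exists hxp hx hyq hy)
  · push Not at hP
    refine .inr ⟨h, hP, fun w hw hcl => ?_⟩
    obtain ⟨x, hxp, hx⟩ := h.exists_p_of_q hw hcl
    exact hP x hxp hx

end CfsgLib.ClassSizesNM
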